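import Mathlib

/-!
Two-by-two algebra for the covering of `Sp₄(F)` by the square of a semisimple class: an elliptic
companion matrix `A = [0 -d; 1 t]` and the products of two of its conjugates.
-/

set_option autoImplicit false

namespace Cfsg.Agent.H19.PSpFour

open Matrix

variable {F : Type*} [Field F]

/-- The companion matrix of `X² - t X + d`. -/
def comp2 (t d : F) : Matrix (Fin 2) (Fin 2) F := !![0, -d; 1, t]

@[simp] theorem comp2_det (t d : F) : (comp2 t d).det = d := by
  simp [comp2, det_fin_two]

@[simp] theorem comp2_trace (t d : F) : (comp2 t d).trace = t := by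
  simp [comp2, trace_fin_two]

/-- `X² - tX + d` has no root in `F`. -/
def NoRoot (t d : F) : Prop := ∀ r : F, r ^ 2 - t * r + d ≠ 0

/-- For every `d ≠ 0, 1` some `t ≠ 0` makes `X² - tX + d` root-free. -/
theorem exists_noRoot [Fintype F] {d : F} (hd1 : d ≠ 1) (hd0 : d ≠ 0) :
    ∃ t : F, t ≠ 0 ∧ NoRoot t d := by
  classical
  let T : Finset F :=
    insert 0 ((((Finset.univ : Finset F).erase 0).erase d).image fun r => r + d / r)
  have hlt : T.card < Fintype.card F := by
    have h1 := Finset.card_insert_le (0 : F)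
      ((((Finset.univ : Finset F).erase 0).erase d).image fun r => r + d / r)
    have h2 := Finset.card_image_le (s := (((Finset.univ : Finset F).erase 0).erase d))
      (f := fun r => r + d / r)
    have h3 : (((Finset.univ : Finset F).erase 0).erase d).card = Fintype.card F - 1 - 1 := by
      rw [Finset.card_erase_of_mem (by simp [hd0]), Finset.card_erase_of_mem (by simp),
        Finset.card_univ]
    have h4 := Fintype.one_lt_card (α := F)
    change T.card ≤ _ at h1
    omega
  obtain ⟨t, -, ht⟩ := Finset.exists_mem_notMem_of_card_lt_card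
    (show T.card < (Finset.univ : Finset F).card by rwa [Finset.card_univ])
  refine ⟨t, fun h => ht (by simp [T, h]), fun r hr => ?_⟩
  have hr0 : r ≠ 0 := by
    rintro rfl
    exact hd0 (by linear_combination hr)
  have htr : t = r + d / r := by
    field_simp
    linear_combination -hr
  refine ht (Finset.mem_insert_of_mem (Finset.mem_image.mpr ?_))
  by_cases hrd : r = d
  · refine ⟨1, by simp [Ne.symm hd1], ?_⟩
    rw [htr, hrd, div_self hd0, div_one, add_comm]
  · exact ⟨r, by simp [hr0, hrd], htr.symm⟩

variable {t d : F}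

theorem NoRoot.d_ne_zero (h : NoRoot t d) : d ≠ 0 := fun hd => h 0 (by simp [hd])

/-- The quadratic form `a² + t a c + d c²` is anisotropic. -/
theorem NoRoot.aniso (h : NoRoot t d) {a c : F} (e : a ^ 2 + t * a * c + d * c ^ 2 = 0) :
    a = 0 ∧ c = 0 := by
  have hc : c = 0 := by
    by_contra hc
    refine h (-(a / c)) ?_
    field_simp
    linear_combination e
  subst hc
  simpa using e

theorem NoRoot.disc_ne_zero (h : NoRoot t d) (ht : t ≠ 0) : 4 * d - t ^ 2 ≠ 0 := by
  intro e
  by_cases h2 : (2 : F) = 0
  · have : t ^ 2 = 0 := by linear_combination 2 * d * h2 - e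
    exact ht (by simpa using this)
  · refine h (t / 2) ?_
    field_simp
    linear_combination e

/-- `a² + t a c + d c²` takes every value. -/
theorem exists_form_value [Fintype F] (h : NoRoot t d) (ht : t ≠ 0) (k : F) :
    ∃ a c : F, a ^ 2 + t * a * c + d * c ^ 2 = k := by
  by_cases h2 : (2 : F) = 0
  · have : ringChar F = 2 := by
      have hdvd : ringChar F ∣ 2 := (ringChar.spec F 2).mp (by exact_mod_cast h2)
      rcases (Nat.dvd_prime Nat.prime_two).mp hdvd with h1 | h1
      · exact absurd h1 (CharP.ringChar_ne_one)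
      · exact h1
    obtain ⟨a, ha⟩ := FiniteField.isSquare_of_char_two this k
    exact ⟨a, 0, by linear_combination -ha⟩
  · have hne := h.disc_ne_zero ht
    have hcard : Fintype.card F % 2 = 1 := by
      refine FiniteField.odd_card_of_char_ne_two ?_
      intro hc
      exact h2 (by exact_mod_cast (ringChar.spec F 2).mpr (by rw [hc]))
    have he : d - t ^ 2 / 4 ≠ 0 := by
      have h4 : (4 : F) ≠ 0 := by
        rw [show (4 : F) = 2 * 2 by norm_num]; exact mul_ne_zero h2 h2
      intro e
      field_simp at e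
      exact hne (by linear_combination e)
    obtain ⟨x, y, hxy⟩ := FiniteField.exists_root_sum_quadratic
      (f := (Polynomial.X : Polynomial F) ^ 2 - Polynomial.C k) (g := Polynomial.C (d - t ^ 2 / 4) * Polynomial.X ^ 2)
      (Polynomial.degree_X_pow_sub_C (by norm_num) _) (Polynomial.degree_C_mul_X_pow 2 he) hcard
    simp only [Polynomial.eval_sub, Polynomial.eval_pow, Polynomial.eval_X, Polynomial.eval_C, Polynomial.eval_mul] at hxy
    refine ⟨x - t * y / 2, y, ?_⟩
    have h4 : (4 : F) = 2 * 2 := by norm_num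
    rw [h4] at hxy
    field_simp at hxy ⊢
    linear_combination hxy

/-- Every affine quadric with this quadratic part has a point. -/
theorem exists_quadric_zero [Fintype F] (h : NoRoot t d) (ht : t ≠ 0) (L M k : F) :
    ∃ a c : F, a ^ 2 + t * a * c + d * c ^ 2 + L * a + M * c + k = 0 := by
  have hΔ := h.disc_ne_zero ht
  obtain ⟨a, c, hac⟩ := exists_form_value h ht
    (((2 * d * L - t * M) / (4 * d - t ^ 2)) ^ 2 +
      t * ((2 * d * L - t * M) / (4 * d - t ^ 2)) * ((2 * M - t * L) / (4 * d - t ^ 2)) +
      d * ((2 * M - t * L) / (4 * d - t ^ 2)) ^ 2 - k)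
  generalize hA : (2 * d * L - t * M) / (4 * d - t ^ 2) = A at hac
  generalize hC : (2 * M - t * L) / (4 * d - t ^ 2) = C at hac
  refine ⟨a - A, c - C, ?_⟩
  have hA' : A * (4 * d - t ^ 2) = 2 * d * L - t * M := by rw [← hA]; exact div_mul_cancel₀ _ hΔ
  have hC' : C * (4 * d - t ^ 2) = 2 * M - t * L := by rw [← hC]; exact div_mul_cancel₀ _ hΔ
  have e1 : 2 * A + t * C = L := mul_right_cancel₀ hΔ (by linear_combination 2 * hA' + t * hC')
  have e2 : t * A + 2 * d * C = M :=
    mul_right_cancel₀ hΔ (by linear_combination t * hA' + 2 * d * hC')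
  rw [← e1, ← e2]
  linear_combination hac

/-- A non-scalar matrix is similar to its companion matrix. -/
theorem exists_conj_comp (X : Matrix (Fin 2) (Fin 2) F) (hX : ∀ c : F, X ≠ c • 1) :
    ∃ P : GL (Fin 2) F, X = (P : Matrix (Fin 2) (Fin 2) F) * comp2 X.trace X.det *
      ((P⁻¹ : GL (Fin 2) F) : Matrix (Fin 2) (Fin 2) F) := by
  suffices h : ∃ u v : F,
      u * (X 1 0 * u + X 1 1 * v) - v * (X 0 0 * u + X 0 1 * v) ≠ 0 by
    obtain ⟨u, v, huv⟩ := h
    let M : Matrix (Fin 2) (Fin 2) F :=
      !![u, X 0 0 * u + X 0 1 * v; v, X 1 0 * u + X 1 1 * v]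
    have hdet : M.det ≠ 0 := by
      simp [M, det_fin_two]
      intro e
      exact huv (by linear_combination e)
    refine ⟨Matrix.GeneralLinearGroup.mkOfDetNeZero M hdet, ?_⟩
    rw [Units.eq_mul_inv_iff_mul_eq]
    show X * M = M * comp2 X.trace X.det
    ext i j
    fin_cases i <;> fin_cases j <;>
      simp [M, comp2, Matrix.mul_apply, Fin.sum_univ_two, det_fin_two, trace_fin_two] <;> ring
  by_cases h10 : X 1 0 ≠ 0
  · exact ⟨1, 0, by simpa using h10⟩
  push Not at h10
  by_cases h01 : X 0 1 ≠ 0
  · exact ⟨0, 1, by simpa using h01⟩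
  push Not at h01
  refine ⟨1, 1, fun e => hX (X 0 0) ?_⟩
  have : X 1 1 = X 0 0 := by rw [h10, h01] at e; linear_combination e
  ext i j
  fin_cases i <;> fin_cases j <;> simp [h10, h01, this]

/-- The blocks we aim at. -/
def GoodBlock (d : F) (M : Matrix (Fin 2) (Fin 2) F) : Prop :=
  M.det = d ^ 2 ∧ (M = d • 1 ∨ (M.trace ≠ 2 * d ∧ ∀ c : F, M ≠ c • 1))

/-- A good block is a product of two conjugates of the companion matrix. -/
theorem goodBlock_factor [Fintype F] (h : NoRoot t d) (ht : t ≠ 0)
    {M : Matrix (Fin 2) (Fin 2) F} (hM : GoodBlock d M) :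
    ∃ P Q : GL (Fin 2) F,
      M = ((P : Matrix (Fin 2) (Fin 2) F) * comp2 t d * ((P⁻¹ : GL (Fin 2) F) : Matrix (Fin 2) (Fin 2) F)) *
        ((Q : Matrix (Fin 2) (Fin 2) F) * comp2 t d * ((Q⁻¹ : GL (Fin 2) F) : Matrix (Fin 2) (Fin 2) F)) := by
  obtain ⟨hdet, hM⟩ := hM
  rcases hM with rfl | ⟨htr, hns⟩
  · let X : Matrix (Fin 2) (Fin 2) F := !![t, d; -1, 0]
    obtain ⟨Q, hQ⟩ := exists_conj_comp X (fun c e => by
      have := congrFun (congrFun e 1) 0
      simp [X] at this)
    rw [show X.trace = t by simp [X, trace_fin_two], show X.det = d by simp [X, det_fin_two]] at hQ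
    refine ⟨1, Q, ?_⟩
    rw [← hQ]
    ext i j
    fin_cases i <;> fin_cases j <;> simp [X, comp2, Matrix.mul_apply, Fin.sum_univ_two]
  · obtain ⟨a, c, hac⟩ := exists_quadric_zero h ht (-t) (M.trace - t ^ 2) d
    let X : Matrix (Fin 2) (Fin 2) F :=
      !![a, M.trace + d * c - t ^ 2 + t * a; c, t - a]
    have hXt : X.trace = t := by simp [X, trace_fin_two]
    have hXd : X.det = d := by
      simp [X, det_fin_two]
      linear_combination -hac
    have hXns : ∀ e : F, X ≠ e • 1 := by
      intro e he
      refine h e ?_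
      have e0 := congrFun (congrFun he 0) 0
      have e1 := congrFun (congrFun he 1) 1
      simp [X] at e0 e1
      have : X.det = e ^ 2 := by rw [he]; simp [det_fin_two, sq]
      rw [hXd] at this
      rw [this]
      linear_combination -e * e0 - e * e1
    let Y := comp2 t d * X
    have hYt : Y.trace = M.trace := by
      simp [Y, X, comp2, trace_fin_two, Matrix.mul_apply, Fin.sum_univ_two]
      ring
    have hYd : Y.det = M.det := by
      simp [Y, Matrix.det_mul, hXd, hdet, sq]
    have hYns : ∀ e : F, Y ≠ e • 1 := by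
      intro e he
      have e00 : -(d * c) = e := by
        have := congrFun (congrFun he 0) 0
        simpa [Y, X, comp2, Matrix.mul_apply, Fin.sum_univ_two] using this
      have e01 : -(d * (t - a)) = 0 := by
        have := congrFun (congrFun he 0) 1
        simpa [Y, X, comp2, Matrix.mul_apply, Fin.sum_univ_two] using this
      have e10 : a + t * c = 0 := by
        have := congrFun (congrFun he 1) 0
        simpa [Y, X, comp2, Matrix.mul_apply, Fin.sum_univ_two] using this
      have ha : a = t := by
        rcases mul_eq_zero.mp (neg_eq_zero.mp e01) with h1 | h1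
        · exact absurd h1 h.d_ne_zero
        · exact (sub_eq_zero.mp h1).symm
      have hc : c = -1 := by
        have h1 : t * (c + 1) = 0 := by linear_combination e10 - ha
        have h2 := (mul_eq_zero.mp h1).resolve_left ht
        linear_combination h2
      apply htr
      rw [← hYt, he, ← e00, hc, Matrix.trace_smul, Matrix.trace_one, Fintype.card_fin]
      simp; ring
    obtain ⟨R, hR⟩ := exists_conj_comp Y hYns
    obtain ⟨S, hS⟩ := exists_conj_comp M hns
    obtain ⟨Q, hQ⟩ := exists_conj_comp X hXns
    rw [hXt, hXd] at hQ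
    rw [hYt, hYd] at hR
    refine ⟨S * R⁻¹, S * R⁻¹ * Q, ?_⟩
    have hY' : comp2 M.trace M.det =
        ((R⁻¹ : GL (Fin 2) F) : Matrix (Fin 2) (Fin 2) F) * Y * (R : Matrix (Fin 2) (Fin 2) F) := by
      rw [hR]; simp [Matrix.mul_assoc]
    conv_lhs => rw [hS, hY']
    simp only [Y, hQ]
    simp [Matrix.mul_assoc, _root_.mul_inv_rev]

/-- A root-free companion matrix has order dividing `q² - 1`. -/
theorem comp2_pow [Fintype F] (h : NoRoot t d) :
    comp2 t d ^ (Fintype.card F ^ 2 - 1) = 1 := by
  classical
  let f : Polynomial F := Polynomial.X ^ 2 - Polynomial.C t * Polynomial.X + Polynomial.C d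
  have hm : f.Monic := by simp only [f]; monicity!
  have hdeg : f.natDegree = 2 := by simp only [f]; compute_degree!
  have hirr : Irreducible f := by
    refine (Polynomial.irreducible_iff_roots_eq_zero_of_degree_le_three (by omega) (by omega)).mpr ?_
    rw [Multiset.eq_zero_iff_forall_notMem]
    intro r hr
    have := (Polynomial.mem_roots hm.ne_zero).mp hr
    exact h r (by simpa [f, Polynomial.IsRoot] using this)
  haveI := Fact.mk hirr
  let pb := AdjoinRoot.powerBasis hm.ne_zero
  haveI := pb.finite
  haveI : Finite (AdjoinRoot f) := Module.finite_of_finite F (M := AdjoinRoot f)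
  haveI := Fintype.ofFinite (AdjoinRoot f)
  have hcard : Fintype.card (AdjoinRoot f) = Fintype.card F ^ 2 := by
    rw [Module.card_fintype pb.basis, Fintype.card_fin]
    simp [pb, AdjoinRoot.powerBasis, hdeg]
  have hroot : AdjoinRoot.root f ≠ 0 := by
    intro e
    have : f ∣ Polynomial.X := AdjoinRoot.mk_eq_zero.mp (by rw [AdjoinRoot.mk_X]; exact e)
    have := Polynomial.natDegree_le_of_dvd this Polynomial.X_ne_zero
    simp [hdeg] at this
  have hpow : AdjoinRoot.root f ^ (Fintype.card F ^ 2 - 1) = 1 := by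
    rw [← hcard]; exact FiniteField.pow_card_sub_one_eq_one _ hroot
  obtain ⟨g, hg⟩ : f ∣ Polynomial.X ^ (Fintype.card F ^ 2 - 1) - 1 :=
    AdjoinRoot.mk_eq_zero.mp (by simp [AdjoinRoot.mk_X, hpow])
  have hf0 : Polynomial.aeval (comp2 t d) f = 0 := by
    simp only [f, map_add, map_sub, map_mul, Polynomial.aeval_X, Polynomial.aeval_C, map_pow]
    ext i j
    fin_cases i <;> fin_cases j <;>
      simp [comp2, sq, Matrix.mul_apply, Fin.sum_univ_two, Algebra.algebraMap_eq_smul_one] <;> ring
  have := congrArg (Polynomial.aeval (comp2 t d)) hg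
  rw [map_mul, hf0, zero_mul, map_sub, map_pow, Polynomial.aeval_X, map_one, sub_eq_zero] at this
  exact this

/-- Symmetric fixed points of `T ↦ A T Aᵀ` vanish. -/
theorem sym_fixed_comp (h : NoRoot t d) (hd : d ≠ 1) {s u v : F}
    (e00 : d ^ 2 * v = s) (e01 : -(d * (u + t * v)) = u)
    (e11 : s + 2 * t * u + t ^ 2 * v = v) : s = 0 ∧ u = 0 ∧ v = 0 := by
  have hv : v = 0 := by
    by_contra hv
    have h1 : ((d - 1) * ((1 + d) ^ 2 - t ^ 2)) * v = 0 := by
      linear_combination (1 + d) * e11 + (1 + d) * e00 + 2 * t * e01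
    rcases mul_eq_zero.mp ((mul_eq_zero.mp h1).resolve_right hv) with h2 | h2
    · exact hd (sub_eq_zero.mp h2)
    · have h3 : (1 + d - t) * (1 + d + t) = 0 := by linear_combination h2
      rcases mul_eq_zero.mp h3 with h4 | h4
      · exact h 1 (by linear_combination h4)
      · exact h (-1) (by linear_combination h4)
  subst hv
  have hs : s = 0 := by linear_combination -e00
  refine ⟨hs, ?_, rfl⟩
  by_contra hu
  have h1 : (1 + d) * u = 0 := by linear_combination -e01
  have hd' : d = -1 := by linear_combination (mul_eq_zero.mp h1).resolve_right hu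
  have h2 : 2 * t * u = 0 := by linear_combination e11 - hs
  rcases mul_eq_zero.mp ((mul_eq_zero.mp h2).resolve_right hu) with h3 | h3
  · exact hd (by linear_combination hd' - h3)
  · exact h 1 (by rw [h3, hd']; ring)

end Cfsg.Agent.H19.PSpFour
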