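import Cfsg.Agent.H19.PSpFour.SquareFrame

/-!
The square of the class of `x = diag(A, A⁻ᵀ)` in `Sp₄(F)`, `A` the elliptic companion matrix, covers
every non-central element.
-/

set_option autoImplicit false

namespace Cfsg.Agent.H19.PSpFour

open Matrix
open Cfsg.Agent.H2

variable {F : Type*} [Field F]

/-- `Sp₄(F)`. -/
abbrev Sp4 (F : Type*) [Field F] := ↥(Matrix.symplecticGroup (Fin 2) F)

theorem J_blocks : J (Fin 2) F = fromBlocks 0 (-1) 1 0 := rfl

/-- `diag(A, A⁻ᵀ)`. -/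
def levi (A : GL (Fin 2) F) : Sp4 F :=
  ⟨fromBlocks (A : Matrix (Fin 2) (Fin 2) F) 0 0
      ((A⁻¹ : GL (Fin 2) F) : Matrix (Fin 2) (Fin 2) F)ᵀ, by
    rw [SymplecticGroup.mem_iff, J_blocks, fromBlocks_transpose]
    simp [fromBlocks_multiply, ← Matrix.transpose_mul]⟩

@[simp] theorem coe_levi (A : GL (Fin 2) F) : ((levi A : Sp4 F) : Matrix (Fin 2 ⊕ Fin 2) (Fin 2 ⊕ Fin 2) F) =
    fromBlocks (A : Matrix (Fin 2) (Fin 2) F) 0 0
      ((A⁻¹ : GL (Fin 2) F) : Matrix (Fin 2) (Fin 2) F)ᵀ := rfl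

theorem levi_mul (A B : GL (Fin 2) F) : levi (A * B) = levi A * levi B := by
  apply Subtype.ext
  simp [fromBlocks_multiply, Matrix.transpose_mul]

/-- The Levi embedding. -/
def leviHom : GL (Fin 2) F →* Sp4 F := MonoidHom.mk' levi levi_mul

/-- `[1 S; 0 1]`. -/
def upU (S : Matrix (Fin 2) (Fin 2) F) (hS : Sᵀ = S) : Sp4 F :=
  ⟨fromBlocks 1 S 0 1, by
    rw [SymplecticGroup.mem_iff, J_blocks, fromBlocks_transpose]
    simp [fromBlocks_multiply, hS]⟩

/-- `[1 0; S 1]`. -/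
def lowU (S : Matrix (Fin 2) (Fin 2) F) (hS : Sᵀ = S) : Sp4 F :=
  ⟨fromBlocks 1 0 S 1, by
    rw [SymplecticGroup.mem_iff, J_blocks, fromBlocks_transpose]
    simp [fromBlocks_multiply, hS]⟩

@[simp] theorem coe_upU (S : Matrix (Fin 2) (Fin 2) F) (hS : Sᵀ = S) :
    ((upU S hS : Sp4 F) : Matrix (Fin 2 ⊕ Fin 2) (Fin 2 ⊕ Fin 2) F) = fromBlocks 1 S 0 1 := rfl

@[simp] theorem coe_lowU (S : Matrix (Fin 2) (Fin 2) F) (hS : Sᵀ = S) :
    ((lowU S hS : Sp4 F) : Matrix (Fin 2 ⊕ Fin 2) (Fin 2 ⊕ Fin 2) F) = fromBlocks 1 0 S 1 := rfl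

/-- An element with invertible corner is `U⁻ · L · U`. -/
theorem exists_factor (k : Sp4 F) (M : GL (Fin 2) F)
    (hM : (k : Matrix (Fin 2 ⊕ Fin 2) (Fin 2 ⊕ Fin 2) F).toBlocks₁₁ =
      (M : Matrix (Fin 2) (Fin 2) F)) :
    ∃ (X Y : Matrix (Fin 2) (Fin 2) F) (hX : Xᵀ = X) (hY : Yᵀ = Y),
      k = lowU X hX * levi M * upU Y hY := by
  obtain ⟨K, hK⟩ := k
  obtain ⟨P, N, R, S, rfl⟩ : ∃ P N R S, K = fromBlocks P N R S :=
    ⟨_, _, _, _, (fromBlocks_toBlocks K).symm⟩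
  simp only [toBlocks_fromBlocks₁₁] at hM
  subst hM
  have h1 := SymplecticGroup.mem_iff.mp hK
  have h2 := SymplecticGroup.mem_iff'.mp hK
  rw [J_blocks, fromBlocks_transpose] at h1 h2
  simp only [fromBlocks_multiply, fromBlocks_inj, Matrix.mul_zero, Matrix.zero_mul, Matrix.mul_one,
    Matrix.one_mul, Matrix.mul_neg, Matrix.neg_mul, zero_add, add_zero] at h1 h2
  obtain ⟨a1, a2, -, -⟩ := h1
  obtain ⟨b1, -, b3, -⟩ := h2
  set Mi : Matrix (Fin 2) (Fin 2) F := ((M⁻¹ : GL (Fin 2) F) : Matrix (Fin 2) (Fin 2) F)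
  have i1 : (M : Matrix (Fin 2) (Fin 2) F) * Mi = 1 := Units.mul_inv M
  have i2 : Mi * (M : Matrix (Fin 2) (Fin 2) F) = 1 := Units.inv_mul M
  have t1 : (M : Matrix (Fin 2) (Fin 2) F)ᵀ * Miᵀ = 1 := by
    rw [← Matrix.transpose_mul, i2, transpose_one]
  have t2 : Miᵀ * (M : Matrix (Fin 2) (Fin 2) F)ᵀ = 1 := by
    rw [← Matrix.transpose_mul, i1, transpose_one]
  have eN : N * (M : Matrix (Fin 2) (Fin 2) F)ᵀ = (M : Matrix (Fin 2) (Fin 2) F) * Nᵀ := by
    rw [← sub_eq_zero, sub_eq_add_neg]; exact a1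
  have eR : (M : Matrix (Fin 2) (Fin 2) F)ᵀ * R = Rᵀ * (M : Matrix (Fin 2) (Fin 2) F) := by
    have e := b1
    rw [← sub_eq_zero] at e ⊢
    linear_combination (norm := noncomm_ring) -e
  have hX : (R * Mi)ᵀ = R * Mi := by
    calc (R * Mi)ᵀ = Miᵀ * Rᵀ := Matrix.transpose_mul _ _
    _ = Miᵀ * (Rᵀ * (M : Matrix (Fin 2) (Fin 2) F)) * Mi := by
        simp only [Matrix.mul_assoc, i1, Matrix.mul_one]
    _ = Miᵀ * ((M : Matrix (Fin 2) (Fin 2) F)ᵀ * R) * Mi := by rw [eR]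
    _ = R * Mi := by rw [← Matrix.mul_assoc Miᵀ, t2, Matrix.one_mul]
  have hY : (Mi * N)ᵀ = Mi * N := by
    calc (Mi * N)ᵀ = Nᵀ * Miᵀ := Matrix.transpose_mul _ _
    _ = Mi * ((M : Matrix (Fin 2) (Fin 2) F) * Nᵀ) * Miᵀ := by
        rw [← Matrix.mul_assoc Mi, i2, Matrix.one_mul]
    _ = Mi * (N * (M : Matrix (Fin 2) (Fin 2) F)ᵀ) * Miᵀ := by rw [eN]
    _ = Mi * N := by simp only [Matrix.mul_assoc, t1, Matrix.mul_one]
  refine ⟨R * Mi, Mi * N, hX, hY, Subtype.ext ?_⟩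
  have eS : (M : Matrix (Fin 2) (Fin 2) F)ᵀ * S = 1 + Rᵀ * N := by
    have e := congrArg transpose b3
    simp only [transpose_add, transpose_neg, transpose_sub, transpose_mul, transpose_transpose,
      transpose_one] at e
    linear_combination (norm := noncomm_ring) e
  have hS : S = R * Mi * N + Miᵀ := by
    calc S = Miᵀ * ((M : Matrix (Fin 2) (Fin 2) F)ᵀ * S) := by
          rw [← Matrix.mul_assoc, t2, Matrix.one_mul]
    _ = Miᵀ + (R * Mi)ᵀ * N := by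
          rw [eS, Matrix.mul_add, Matrix.mul_one, ← Matrix.mul_assoc, Matrix.transpose_mul]
    _ = R * Mi * N + Miᵀ := by rw [hX, add_comm]
  simp only [Submonoid.coe_mul, coe_lowU, coe_levi, coe_upU, fromBlocks_multiply, Matrix.mul_zero,
    Matrix.zero_mul, Matrix.mul_one, Matrix.one_mul, add_zero, zero_add]
  rw [fromBlocks_inj]
  refine ⟨rfl, ?_, ?_, ?_⟩
  · rw [← Matrix.mul_assoc, i1, Matrix.one_mul]
  · rw [Matrix.mul_assoc, i2, Matrix.mul_one]
  · rw [hS, Matrix.mul_assoc (R * Mi) _ (Mi * N), ← Matrix.mul_assoc _ Mi N, i1, Matrix.one_mul]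

variable [Fintype F] {t d : F}

/-- The companion matrix as a unit. -/
def compGL (h : NoRoot t d) : GL (Fin 2) F :=
  Matrix.GeneralLinearGroup.mkOfDetNeZero (comp2 t d) (by simpa using h.d_ne_zero)

@[simp] theorem coe_compGL (h : NoRoot t d) :
    ((compGL h : GL (Fin 2) F) : Matrix (Fin 2) (Fin 2) F) = comp2 t d := rfl

/-- The class representative. -/
def xRep (h : NoRoot t d) : Sp4 F := levi (compGL h)

/-- Symmetric fixed points of `T ↦ Aᵀ T A` vanish. -/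
theorem sym_fixed_comp' (h : NoRoot t d) (hd : d ≠ 1) {s u v : F}
    (e00 : v = s) (e01 : -(d * u) + t * v = u)
    (e11 : d ^ 2 * s - 2 * d * t * u + t ^ 2 * v = v) : s = 0 ∧ u = 0 ∧ v = 0 := by
  have hv : v = 0 := by
    by_contra hv
    have h1 : ((1 - d) * (t ^ 2 - (1 + d) ^ 2)) * v = 0 := by
      linear_combination (1 + d) * e11 + (1 + d) * d ^ 2 * e00 - 2 * d * t * e01
    rcases mul_eq_zero.mp ((mul_eq_zero.mp h1).resolve_right hv) with h2 | h2
    · exact hd (sub_eq_zero.mp h2).symm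
    · have h3 : (1 + d - t) * (1 + d + t) = 0 := by linear_combination -h2
      rcases mul_eq_zero.mp h3 with h4 | h4
      · exact h 1 (by linear_combination h4)
      · exact h (-1) (by linear_combination h4)
  subst hv
  have hs : s = 0 := e00.symm
  refine ⟨hs, ?_, rfl⟩
  by_contra hu
  have h1 : (1 + d) * u = 0 := by linear_combination -e01
  have hd' : d = -1 := by linear_combination (mul_eq_zero.mp h1).resolve_right hu
  have h2 : 2 * t * u = 0 := by linear_combination e11 - d ^ 2 * hs + 2 * t * u * hd'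
  rcases mul_eq_zero.mp ((mul_eq_zero.mp h2).resolve_right hu) with h3 | h3
  · exact hd (by linear_combination hd' - h3)
  · exact h 1 (by rw [h3, hd']; ring)

theorem exists_eq_comp_sub (h : NoRoot t d) (hd : d ≠ 1) (S : Matrix (Fin 2) (Fin 2) F)
    (hS : Sᵀ = S) :
    ∃ T : Matrix (Fin 2) (Fin 2) F, Tᵀ = T ∧ comp2 t d * T * (comp2 t d)ᵀ - T = S := by
  let Sym := {T : Matrix (Fin 2) (Fin 2) F // Tᵀ = T}
  let φ : Sym → Sym := fun T => ⟨comp2 t d * T.1 * (comp2 t d)ᵀ - T.1, by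
    simp [Matrix.transpose_sub, Matrix.transpose_mul, T.2, Matrix.mul_assoc]⟩
  have hinj : Function.Injective φ := by
    intro T T' e
    have e' := congrArg Subtype.val e
    simp only [φ] at e'
    have hD : comp2 t d * (T.1 - T'.1) * (comp2 t d)ᵀ = T.1 - T'.1 := by
      linear_combination (norm := noncomm_ring) e'
    have hsym : (T.1 - T'.1)ᵀ = T.1 - T'.1 := by simp [Matrix.transpose_sub, T.2, T'.2]
    apply Subtype.ext
    rw [← sub_eq_zero]
    generalize T.1 - T'.1 = D at hD hsym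
    have h00 := congrFun (congrFun hD 0) 0
    have h01 := congrFun (congrFun hD 0) 1
    have h11 := congrFun (congrFun hD 1) 1
    have h10 : D 1 0 = D 0 1 := congrFun (congrFun hsym 0) 1
    simp [comp2, Matrix.mul_apply, Fin.sum_univ_two, Matrix.vecMul, dotProduct, h10] at h00 h01 h11
    obtain ⟨a, b, c⟩ := sym_fixed_comp h hd (s := D 0 0) (u := D 0 1) (v := D 1 1)
      (by linear_combination h00) (by linear_combination h01) (by linear_combination h11)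
    ext i j
    fin_cases i <;> fin_cases j <;> simp [a, b, c, h10]
  obtain ⟨T, hT⟩ := (Finite.injective_iff_surjective.mp hinj) ⟨S, hS⟩
  exact ⟨T.1, T.2, congrArg Subtype.val hT⟩

theorem exists_eq_comp_sub' (h : NoRoot t d) (hd : d ≠ 1) (S : Matrix (Fin 2) (Fin 2) F)
    (hS : Sᵀ = S) :
    ∃ T : Matrix (Fin 2) (Fin 2) F, Tᵀ = T ∧ (comp2 t d)ᵀ * T * comp2 t d - T = S := by
  let Sym := {T : Matrix (Fin 2) (Fin 2) F // Tᵀ = T}
  let φ : Sym → Sym := fun T => ⟨(comp2 t d)ᵀ * T.1 * comp2 t d - T.1, by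
    simp [Matrix.transpose_sub, Matrix.transpose_mul, T.2, Matrix.mul_assoc]⟩
  have hinj : Function.Injective φ := by
    intro T T' e
    have e' := congrArg Subtype.val e
    simp only [φ] at e'
    have hD : (comp2 t d)ᵀ * (T.1 - T'.1) * comp2 t d = T.1 - T'.1 := by
      linear_combination (norm := noncomm_ring) e'
    have hsym : (T.1 - T'.1)ᵀ = T.1 - T'.1 := by simp [Matrix.transpose_sub, T.2, T'.2]
    apply Subtype.ext
    rw [← sub_eq_zero]
    generalize T.1 - T'.1 = D at hD hsym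
    have h00 := congrFun (congrFun hD 0) 0
    have h01 := congrFun (congrFun hD 0) 1
    have h11 := congrFun (congrFun hD 1) 1
    have h10 : D 1 0 = D 0 1 := congrFun (congrFun hsym 0) 1
    simp [comp2, Matrix.mul_apply, Fin.sum_univ_two, Matrix.vecMul, dotProduct, h10] at h00 h01 h11
    obtain ⟨a, b, c⟩ := sym_fixed_comp' h hd (s := D 0 0) (u := D 0 1) (v := D 1 1)
      (by linear_combination h00) (by linear_combination h01) (by linear_combination h11)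
    ext i j
    fin_cases i <;> fin_cases j <;> simp [a, b, c, h10]
  obtain ⟨T, hT⟩ := (Finite.injective_iff_surjective.mp hinj) ⟨S, hS⟩
  exact ⟨T.1, T.2, congrArg Subtype.val hT⟩

/-- `U⁻ · levi B` is conjugate to `x`, for `B` similar to the companion matrix. -/
theorem isConj_lowU_levi (h : NoRoot t d) (hd : d ≠ 1) (P : GL (Fin 2) F)
    (X : Matrix (Fin 2) (Fin 2) F) (hX : Xᵀ = X) :
    IsConj (xRep h) (lowU X hX * levi (P * compGL h * P⁻¹)) := by
  set Ai : Matrix (Fin 2) (Fin 2) F := (((compGL h)⁻¹ : GL (Fin 2) F) : Matrix (Fin 2) (Fin 2) F) with hAi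
  set Pm : Matrix (Fin 2) (Fin 2) F := (P : Matrix (Fin 2) (Fin 2) F) with hPm
  set Pi' : Matrix (Fin 2) (Fin 2) F := ((P⁻¹ : GL (Fin 2) F) : Matrix (Fin 2) (Fin 2) F) with hPi
  have hsym : (Pmᵀ * X * Pm * comp2 t d)ᵀ = (comp2 t d)ᵀ * (Pmᵀ * X * Pm) := by
    simp [Matrix.transpose_mul, hX, Matrix.mul_assoc]
  -- solve `T A - A⁻ᵀ T = (Pᵀ X P) A`
  obtain ⟨T, hT, hTS⟩ := exists_eq_comp_sub' h hd ((comp2 t d)ᵀ * (Pmᵀ * X * Pm) * comp2 t d)
    (by simp [Matrix.transpose_mul, hX, Matrix.mul_assoc])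
  rw [isConj_iff]
  refine ⟨levi P * lowU T hT, ?_⟩
  rw [mul_inv_eq_iff_eq_mul]
  apply Subtype.ext
  simp only [xRep, Submonoid.coe_mul, coe_levi, coe_lowU, fromBlocks_multiply, Matrix.mul_zero,
    Matrix.zero_mul, Matrix.mul_one, Matrix.one_mul, add_zero, zero_add, fromBlocks_inj,
    _root_.mul_inv_rev, inv_inv, Units.val_mul, coe_compGL]
  have i1 : Pi' * Pm = 1 := Units.inv_mul P
  have i2 : Pmᵀ * Pi'ᵀ = 1 := by rw [← Matrix.transpose_mul, i1, transpose_one]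
  have i4 : Pi'ᵀ * Pmᵀ = 1 := by
    rw [← Matrix.transpose_mul]; exact (congrArg transpose (Units.mul_inv P)).trans transpose_one
  have a1 : Aiᵀ * (comp2 t d)ᵀ = 1 := by
    rw [← Matrix.transpose_mul]; exact (congrArg transpose (Units.mul_inv (compGL h))).trans transpose_one
  have key : T * comp2 t d = Pmᵀ * X * Pm * comp2 t d + Aiᵀ * T := by
    have e := congrArg (fun Z => Aiᵀ * Z) hTS
    simp only [Matrix.mul_sub, ← Matrix.mul_assoc, a1, Matrix.one_mul] at e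
    linear_combination (norm := noncomm_ring) e
  simp only [← hAi, ← hPm, ← hPi, Matrix.transpose_mul, Matrix.mul_assoc]
  have i3 : Pm * Pi' = 1 := Units.mul_inv P
  clear_value Pm Pi' Ai
  have r1 : ∀ Z, Pi' * (Pm * Z) = Z := fun Z => by rw [← Matrix.mul_assoc, i1, Matrix.one_mul]
  have r2 : ∀ Z, Pmᵀ * (Pi'ᵀ * Z) = Z := fun Z => by rw [← Matrix.mul_assoc, i2, Matrix.one_mul]
  have r4 : ∀ Z, Pi'ᵀ * (Pmᵀ * Z) = Z := fun Z => by rw [← Matrix.mul_assoc, i4, Matrix.one_mul]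
  simp only [Matrix.mul_assoc] at key
  simp [key, Matrix.mul_add, Matrix.add_mul, Matrix.mul_assoc, r1, r2, r4, i1, i2]

/-- `levi B · U` is conjugate to `x`. -/
theorem isConj_levi_upU (h : NoRoot t d) (hd : d ≠ 1) (P : GL (Fin 2) F)
    (Y : Matrix (Fin 2) (Fin 2) F) (hY : Yᵀ = Y) :
    IsConj (xRep h) (levi (P * compGL h * P⁻¹) * upU Y hY) := by
  set Ai : Matrix (Fin 2) (Fin 2) F := (((compGL h)⁻¹ : GL (Fin 2) F) : Matrix (Fin 2) (Fin 2) F) with hAi
  set Pm : Matrix (Fin 2) (Fin 2) F := (P : Matrix (Fin 2) (Fin 2) F) with hPm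
  set Pi' : Matrix (Fin 2) (Fin 2) F := ((P⁻¹ : GL (Fin 2) F) : Matrix (Fin 2) (Fin 2) F) with hPi
  obtain ⟨T, hT, hTS⟩ := exists_eq_comp_sub h hd (-(comp2 t d * (Pi' * Y * Pi'ᵀ) * (comp2 t d)ᵀ))
    (by simp [Matrix.transpose_mul, hY, Matrix.mul_assoc])
  rw [isConj_iff]
  refine ⟨levi P * upU T hT, ?_⟩
  rw [mul_inv_eq_iff_eq_mul]
  apply Subtype.ext
  simp only [xRep, Submonoid.coe_mul, coe_levi, coe_upU, fromBlocks_multiply, Matrix.mul_zero,
    Matrix.zero_mul, Matrix.mul_one, Matrix.one_mul, add_zero, zero_add, fromBlocks_inj,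
    _root_.mul_inv_rev, inv_inv, Units.val_mul, coe_compGL]
  have i1 : Pi' * Pm = 1 := Units.inv_mul P
  have i2 : Pmᵀ * Pi'ᵀ = 1 := by rw [← Matrix.transpose_mul, i1, transpose_one]
  have a1 : (comp2 t d)ᵀ * Aiᵀ = 1 := by
    rw [← Matrix.transpose_mul]; exact (congrArg transpose (Units.inv_mul (compGL h))).trans transpose_one
  have key : T * Aiᵀ = comp2 t d * T + comp2 t d * (Pi' * Y * Pi'ᵀ) := by
    have e := congrArg (fun Z => Z * Aiᵀ) hTS
    simp only [Matrix.sub_mul, Matrix.neg_mul, Matrix.mul_assoc, a1, Matrix.mul_one] at e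
    linear_combination (norm := noncomm_ring) -e
  simp only [← hAi, ← hPm, ← hPi, Matrix.transpose_mul, Matrix.mul_assoc]
  have i3 : Pm * Pi' = 1 := Units.mul_inv P
  clear_value Pm Pi' Ai
  have r1 : ∀ Z, Pi' * (Pm * Z) = Z := fun Z => by rw [← Matrix.mul_assoc, i1, Matrix.one_mul]
  have r2 : ∀ Z, Pmᵀ * (Pi'ᵀ * Z) = Z := fun Z => by rw [← Matrix.mul_assoc, i2, Matrix.one_mul]
  simp only [Matrix.mul_assoc] at key
  simp [key, Matrix.mul_add, Matrix.add_mul, Matrix.mul_assoc, r1, r2, i1, i2]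

/-- The square of the class covers every non-central element. -/
theorem cover (h : NoRoot t d) (ht : t ≠ 0) (hd : d ≠ 1) (hodd : (2 : F) ≠ 0 → d = -1)
    (g : Sp4 F) (hg : g ∉ Subgroup.center (Sp4 F)) :
    ∃ a b : Sp4 F, IsConj (xRep h) a ∧ IsConj (xRep h) b ∧ g = a * b := by
  obtain ⟨e₁, e₂, f₁, f₂, hf, hgood⟩ := exists_goodBlock h.d_ne_zero hd hodd hg
  obtain ⟨k, hk⟩ := exists_conj_block g hf
  obtain ⟨P, Q, hPQ⟩ := goodBlock_factor h ht hgood
  obtain ⟨X, Y, hX, hY, hfac⟩ := exists_factor (k⁻¹ * g * k)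
    ((P * compGL h * P⁻¹) * (Q * compGL h * Q⁻¹)) (by rw [hk, hPQ]; simp)
  rw [levi_mul] at hfac
  refine ⟨k * (lowU X hX * levi (P * compGL h * P⁻¹)) * k⁻¹,
    k * (levi (Q * compGL h * Q⁻¹) * upU Y hY) * k⁻¹,
    (isConj_lowU_levi h hd P X hX).trans (isConj_iff.mpr ⟨k, rfl⟩),
    (isConj_levi_upU h hd Q Y hY).trans (isConj_iff.mpr ⟨k, rfl⟩), ?_⟩
  calc g = k * (k⁻¹ * g * k) * k⁻¹ := by group
  _ = k * ((lowU X hX * (levi (P * compGL h * P⁻¹) * levi (Q * compGL h * Q⁻¹))) * upU Y hY) * k⁻¹ := by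
      rw [hfac]
  _ = _ := by group

/-- The representative has order dividing `q² - 1`. -/
theorem xRep_pow (h : NoRoot t d) : xRep h ^ (Fintype.card F ^ 2 - 1) = 1 := by
  have e : compGL h ^ (Fintype.card F ^ 2 - 1) = 1 := Units.ext (by simp [comp2_pow h])
  show leviHom (compGL h) ^ _ = 1
  rw [← map_pow, e, map_one]

end Cfsg.Agent.H19.PSpFour
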