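import Cfsg.Agent.H19.PSpFour.SquareAlg
import Cfsg.Agent.H2.Center

/-!
Symplectic frames in dimension four: every non-central element of `Sp₄(F)` has, in some frame, a good
upper left block.
-/

set_option autoImplicit false

namespace Cfsg.Agent.H19.PSpFour

open Matrix
open Cfsg.Agent.H2

variable {F : Type*} [Field F]

/-- Vectors of the four-dimensional space. -/
abbrev V4 (F : Type*) := Fin 2 ⊕ Fin 2 → F

/-- The form, oriented so that `ε_l` pairs to `1` with `ε_r`. -/
def bf (F : Type*) [Field F] : LinearMap.BilinForm F (V4 F) := (sympBilin 2 F).flip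

theorem bf_apply (u v : V4 F) : bf F u v = Cfsg.sympForm 2 F v u := by
  simp [bf]

@[simp] theorem bf_self (u : V4 F) : bf F u u = 0 := by simp [bf_apply]

theorem bf_swap (u v : V4 F) : bf F v u = -bf F u v := by
  rw [bf_apply, bf_apply, sympForm_swap]

theorem bf_coord (u v : V4 F) :
    bf F u v = u (.inl 0) * v (.inr 0) + u (.inl 1) * v (.inr 1)
      - (u (.inr 0) * v (.inl 0) + u (.inr 1) * v (.inl 1)) := by
  simp [bf_apply, sympForm_apply, Fin.sum_univ_two]
  ring

variable (g : Matrix.symplecticGroup (Fin 2) F)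

/-- The action of `g`. -/
def act : V4 F →ₗ[F] V4 F := Matrix.toLin' (g : Matrix (Fin 2 ⊕ Fin 2) (Fin 2 ⊕ Fin 2) F)

@[simp] theorem act_apply (v : V4 F) :
    act g v = (g : Matrix (Fin 2 ⊕ Fin 2) (Fin 2 ⊕ Fin 2) F) *ᵥ v := Matrix.toLin'_apply _ _

theorem bf_act (u v : V4 F) : bf F (act g u) (act g v) = bf F u v := by
  simp [bf_apply]

/-- The four vectors are a frame. -/
structure IsFrame (e₁ e₂ f₁ f₂ : V4 F) : Prop where
  ee : bf F e₁ e₂ = 0
  ff : bf F f₁ f₂ = 0
  ef11 : bf F e₁ f₁ = 1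
  ef12 : bf F e₁ f₂ = 0
  ef21 : bf F e₂ f₁ = 0
  ef22 : bf F e₂ f₂ = 1

/-- The block of `g` in a frame. -/
def frameBlock (e₁ e₂ f₁ f₂ : V4 F) : Matrix (Fin 2) (Fin 2) F :=
  !![bf F (act g e₁) f₁, bf F (act g e₂) f₁; bf F (act g e₁) f₂, bf F (act g e₂) f₂]

/-- A frame comes from a symplectic matrix, whose conjugate of `g` has that block. -/
theorem exists_conj_block {e₁ e₂ f₁ f₂ : V4 F} (hf : IsFrame e₁ e₂ f₁ f₂) :
    ∃ h : Matrix.symplecticGroup (Fin 2) F,
      ((h⁻¹ * g * h : Matrix.symplecticGroup (Fin 2) F) :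
        Matrix (Fin 2 ⊕ Fin 2) (Fin 2 ⊕ Fin 2) F).toBlocks₁₁ = frameBlock g e₁ e₂ f₁ f₂ := by
  let c : Fin 2 ⊕ Fin 2 → V4 F := Sum.elim ![e₁, e₂] ![f₁, f₂]
  let H : Matrix (Fin 2 ⊕ Fin 2) (Fin 2 ⊕ Fin 2) F := Matrix.of fun i j => c j i
  have hcol : ∀ j, H *ᵥ Pi.single j 1 = c j := fun j => by
    ext i; simp [H]
  have hH : H ∈ Matrix.symplecticGroup (Fin 2) F := by
    rw [SymplecticGroup.mem_iff']
    ext i j
    have e : (Hᵀ * J (Fin 2) F * H) i j = bf F (c j) (c i) := by
      rw [bf_apply, Cfsg.sympForm, Matrix.mul_assoc, Matrix.mul_apply, dotProduct]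
      refine Finset.sum_congr rfl fun k _ => ?_
      rfl
    rw [e]
    have := hf.ee; have := hf.ff; have := hf.ef11; have := hf.ef12; have := hf.ef21; have := hf.ef22
    rcases i with i | i <;> rcases j with j | j <;> fin_cases i <;> fin_cases j <;>
      simp [c, J, Matrix.fromBlocks, bf_swap e₁ e₂, bf_swap f₁ f₂, bf_swap e₁ f₁, bf_swap e₁ f₂,
        bf_swap e₂ f₁, bf_swap e₂ f₂, *]
  refine ⟨⟨H, hH⟩, ?_⟩
  generalize hh : (⟨H, hH⟩ : Matrix.symplecticGroup (Fin 2) F) = h
  have hcol' : ∀ j, (h : Matrix (Fin 2 ⊕ Fin 2) (Fin 2 ⊕ Fin 2) F) *ᵥ Pi.single j 1 = c j := by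
    intro j; rw [← hh]; exact hcol j
  have key : ∀ i j : Fin 2,
      ((h⁻¹ * g * h : Matrix.symplecticGroup (Fin 2) F) :
        Matrix (Fin 2 ⊕ Fin 2) (Fin 2 ⊕ Fin 2) F) (.inl i) (.inl j) =
        bf F (act g (c (.inl j))) (c (.inr i)) := by
    intro i j
    have e : (h : Matrix (Fin 2 ⊕ Fin 2) (Fin 2 ⊕ Fin 2) F) *
        ((h⁻¹ * g * h : Matrix.symplecticGroup (Fin 2) F) :
          Matrix (Fin 2 ⊕ Fin 2) (Fin 2 ⊕ Fin 2) F) =
        (g : Matrix (Fin 2 ⊕ Fin 2) (Fin 2 ⊕ Fin 2) F) *
          (h : Matrix (Fin 2 ⊕ Fin 2) (Fin 2 ⊕ Fin 2) F) := by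
      show ((h * (h⁻¹ * g * h) : Matrix.symplecticGroup (Fin 2) F) :
        Matrix (Fin 2 ⊕ Fin 2) (Fin 2 ⊕ Fin 2) F) =
          ((g * h : Matrix.symplecticGroup (Fin 2) F) : Matrix (Fin 2 ⊕ Fin 2) (Fin 2 ⊕ Fin 2) F)
      congr 1
      group
    rw [act_apply, bf_apply, ← hcol', ← hcol', Matrix.mulVec_mulVec, ← e, ← Matrix.mulVec_mulVec,
      sympForm_mulVec, sympForm_single_inr]
    simp
  ext i j
  show _ = frameBlock g e₁ e₂ f₁ f₂ i j
  simp only [Matrix.toBlocks₁₁, Matrix.of_apply, key]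
  fin_cases i <;> fin_cases j <;> simp [frameBlock, c]

variable {g}

/-- The case of a vector `v` with `B(gv, v) ≠ 0`. -/
theorem exists_frame_generic {d : F} (hd : d ≠ 0) {v : V4 F} (hβ : bf F (act g v) v ≠ 0) :
    ∃ e₁ e₂ f₁ f₂, IsFrame e₁ e₂ f₁ f₂ ∧ GoodBlock d (frameBlock g e₁ e₂ f₁ f₂) := by
  set β := bf F (act g v) v with hβdef
  have hvv : bf F v (act g v) = -β := by rw [bf_swap]
  -- a hyperbolic pair orthogonal to `v` and `g v`
  obtain ⟨h, -, h1, h2⟩ := exists_map_pair
    (u := (Pi.single (.inr 0) 1 : V4 F)) (v := Pi.single (.inl 0) 1)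
    (u' := (-β⁻¹) • act g v) (v' := v)
    (by rw [sympForm_single_inr]; simp)
    (by
      rw [sympForm_single_inr, ← sympBilin_apply, map_smul, LinearMap.smul_apply, sympBilin_apply,
        ← bf_apply, hvv]
      simp [hβ])
  set E : V4 F := (h : Matrix (Fin 2 ⊕ Fin 2) (Fin 2 ⊕ Fin 2) F) *ᵥ Pi.single (.inl 1) 1
  set E' : V4 F := (h : Matrix (Fin 2 ⊕ Fin 2) (Fin 2 ⊕ Fin 2) F) *ᵥ Pi.single (.inr 1) 1
  have hb : ∀ x y : V4 F, bf F ((h : Matrix (Fin 2 ⊕ Fin 2) (Fin 2 ⊕ Fin 2) F) *ᵥ x)
      ((h : Matrix (Fin 2 ⊕ Fin 2) (Fin 2 ⊕ Fin 2) F) *ᵥ y) = bf F x y := fun x y => by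
    simp [bf_apply]
  have hEE' : bf F E E' = 1 := by simp only [E, E', hb]; simp [bf_coord]
  have hvE : bf F v E = 0 := by rw [← h2]; simp only [E, hb]; simp [bf_coord]
  have hvE' : bf F v E' = 0 := by rw [← h2]; simp only [E', hb]; simp [bf_coord]
  have hgE : bf F (act g v) E = 0 := by
    have : bf F ((-β⁻¹) • act g v) E = 0 := by rw [← h1]; simp only [E, hb]; simp [bf_coord]
    simpa [hβ] using this
  have hgE' : bf F (act g v) E' = 0 := by
    have : bf F ((-β⁻¹) • act g v) E' = 0 := by rw [← h1]; simp only [E', hb]; simp [bf_coord]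
    simpa [hβ] using this
  -- a pair `(e, f)` with `B(g e, v) = 0`
  obtain ⟨e, f, hef, hve, hvf, hge, hgf, hn, hspan⟩ : ∃ e f : V4 F, bf F e f = 1 ∧ bf F v e = 0 ∧
      bf F v f = 0 ∧ bf F (act g v) e = 0 ∧ bf F (act g v) f = 0 ∧ bf F (act g e) v = 0 ∧
      ∀ x, bf F x e = 0 → bf F x f = 0 → bf F x E = 0 ∧ bf F x E' = 0 := by
    by_cases hn : bf F (act g E) v = 0
    · exact ⟨E, E', hEE', hvE, hvE', hgE, hgE', hn, fun x h h' => ⟨h, h'⟩⟩
    set nE := bf F (act g E) v
    set nF := bf F (act g E') v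
    refine ⟨nF • E - nE • E', nE⁻¹ • E, ?_, ?_, ?_, ?_, ?_, ?_, ?_⟩
    · simp [map_sub, map_smul, bf_swap E E', hEE', hn]
    · simp [map_sub, map_smul, hvE, hvE']
    · simp [map_smul, hvE]
    · simp [map_sub, map_smul, -act_apply, hgE, hgE']
    · simp [map_smul, -act_apply, hgE]
    · simp only [map_sub, map_smul, LinearMap.sub_apply, LinearMap.smul_apply, smul_eq_mul, nE, nF]
      ring
    · intro x h h'
      have h3 : bf F x E = 0 := by simpa [hn] using h'
      simp [h3, hn] at h
      exact ⟨h3, h⟩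
  -- the isotropic partner of `v` with prescribed value at `g v`
  let f0 : F → V4 F := fun a => β⁻¹ • (a • v - act g v)
  have hv0 : ∀ a, bf F v (f0 a) = 1 := fun a => by
    simp [f0, map_smul, map_sub, -act_apply, hvv, hβ]
  have hg0 : ∀ a, bf F (act g v) (f0 a) = a := fun a => by
    simp only [f0, map_smul, map_sub, smul_eq_mul, bf_self, sub_zero, ← hβdef]
    field_simp
  have hx0 : ∀ x, bf F v x = 0 → bf F (act g v) x = 0 → ∀ a, bf F x (f0 a) = 0 := fun x hx hx' a => by
    simp [f0, map_smul, map_sub, -act_apply, bf_swap v x, bf_swap (act g v) x, hx, hx']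
  have hge0 : ∀ a, bf F (act g e) (f0 a) = 0 := fun a => by
    simp only [f0, map_smul, map_sub, smul_eq_mul, hn, bf_act, bf_swap v e, hve]
    ring
  by_cases hE : bf F (act g e) e = 0
  · set b := bf F (act g e) f
    by_cases hbd : b = d
    · -- the scalar block
      refine ⟨v, e, f0 d, f, ⟨hve, ?_, hv0 d, hvf, hx0 e hve hge d, hef⟩, ?_⟩
      · rw [bf_swap, hx0 f hvf hgf d, neg_zero]
      · have : frameBlock g v e (f0 d) f = d • 1 := by
          ext i j
          fin_cases i <;> fin_cases j <;>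
            simp [frameBlock, -act_apply, hg0, hge0, hgf, b, ← hbd]
        exact ⟨by simp [this, det_fin_two, sq], Or.inl this⟩
    · by_cases hb0 : b = 0
      · exfalso
        -- `g e` would be orthogonal to a basis
        have hgv : bf F (act g e) (act g v) = 0 := by rw [bf_act, bf_swap, hve, neg_zero]
        obtain ⟨x1, x2⟩ := hspan (act g e) hE hb0
        have x3 : bf F (act g e) ((-β⁻¹) • act g v) = 0 := by rw [map_smul, hgv, smul_zero]
        have hzero : act g e = 0 := by
          have : ((h⁻¹ : Matrix.symplecticGroup (Fin 2) F) : Matrix (Fin 2 ⊕ Fin 2) (Fin 2 ⊕ Fin 2) F) *ᵥ act g e = 0 := by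
            have key : ∀ i, bf F (((h⁻¹ : Matrix.symplecticGroup (Fin 2) F) : Matrix (Fin 2 ⊕ Fin 2) (Fin 2 ⊕ Fin 2) F) *ᵥ act g e)
                (Pi.single i 1) = 0 := by
              intro i
              rw [← hb, Matrix.mulVec_mulVec]
              have e1 : (h : Matrix (Fin 2 ⊕ Fin 2) (Fin 2 ⊕ Fin 2) F) *
                  ((h⁻¹ : Matrix.symplecticGroup (Fin 2) F) : Matrix (Fin 2 ⊕ Fin 2) (Fin 2 ⊕ Fin 2) F) = 1 := by
                show ((h * h⁻¹ : Matrix.symplecticGroup (Fin 2) F) : Matrix (Fin 2 ⊕ Fin 2) (Fin 2 ⊕ Fin 2) F) = 1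
                simp
              rw [e1, Matrix.one_mulVec]
              rcases i with i | i <;> fin_cases i
              · show bf F (act g e) ((h : Matrix (Fin 2 ⊕ Fin 2) (Fin 2 ⊕ Fin 2) F) *ᵥ Pi.single (.inl 0) 1) = 0
                rw [h2, hn]
              · exact x1
              · show bf F (act g e) ((h : Matrix (Fin 2 ⊕ Fin 2) (Fin 2 ⊕ Fin 2) F) *ᵥ Pi.single (.inr 0) 1) = 0
                rw [h1, x3]
              · exact x2
            ext i
            rcases i with i | i
            · have := key (.inr i)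
              rw [bf_apply, sympForm_single_inr] at this
              simpa using this
            · have := key (.inl i)
              rw [bf_apply, sympForm_single_inl] at this
              simpa using this
          have e2 := congrArg (fun x => (h : Matrix (Fin 2 ⊕ Fin 2) (Fin 2 ⊕ Fin 2) F) *ᵥ x) this
          simp only [Matrix.mulVec_mulVec, Matrix.mulVec_zero] at e2
          have e1 : (h : Matrix (Fin 2 ⊕ Fin 2) (Fin 2 ⊕ Fin 2) F) *
              ((h⁻¹ : Matrix.symplecticGroup (Fin 2) F) : Matrix (Fin 2 ⊕ Fin 2) (Fin 2 ⊕ Fin 2) F) = 1 := by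
            show ((h * h⁻¹ : Matrix.symplecticGroup (Fin 2) F) : Matrix (Fin 2 ⊕ Fin 2) (Fin 2 ⊕ Fin 2) F) = 1
            simp
          rwa [e1, Matrix.one_mulVec] at e2
        have : bf F (act g e) (act g f) = 0 := by rw [hzero]; simp
        rw [bf_act, hef] at this
        exact one_ne_zero this
      · -- the diagonal case, made non-scalar
        set a := d ^ 2 / b
        refine ⟨v, e, f0 a - e, f - v, ⟨hve, ?_, ?_, ?_, ?_, ?_⟩, ?_⟩
        · simp only [map_sub, LinearMap.sub_apply]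
          rw [bf_swap f (f0 a), hx0 f hvf hgf, bf_swap v (f0 a), hv0, hef, bf_swap v e, hve]
          simp
        · simp [map_sub, hv0, hve]
        · simp [map_sub, hvf]
        · simp [map_sub, hx0 e hve hge]
        · simp [map_sub, hef, bf_swap v e, hve]
        · have M11 : bf F (act g v) (f0 a - e) = a := by simp [map_sub, -act_apply, hg0, hge]
          have M21 : bf F (act g v) (f - v) = -β := by simp [map_sub, -act_apply, hgf, β]
          have M12 : bf F (act g e) (f0 a - e) = 0 := by simp [map_sub, -act_apply, hge0, hE]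
          have M22 : bf F (act g e) (f - v) = b := by simp [map_sub, -act_apply, hn, b]
          have hab : a * b = d ^ 2 := by simp only [a]; field_simp
          refine ⟨by simp [frameBlock, det_fin_two, -act_apply, M11, M21, M12, M22, hab],
            Or.inr ⟨?_, fun c hc => ?_⟩⟩
          · simp [frameBlock, trace_fin_two, -act_apply, M11, M22]
            intro e'
            have : (b - d) ^ 2 = 0 := by linear_combination b * e' - hab
            exact hbd (sub_eq_zero.mp (by simpa using this))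
          · have := congrFun (congrFun hc 1) 0
            simp [frameBlock, -act_apply, M21, hβ] at this
  · -- shift `f` along `e` to get the scalar block
    set μ := (d - bf F (act g e) f) / bf F (act g e) e
    refine ⟨v, e, f0 d, f + μ • e, ⟨hve, ?_, hv0 d, ?_, hx0 e hve hge d, ?_⟩, ?_⟩
    · rw [bf_swap, LinearMap.map_add₂, LinearMap.map_smul₂, hx0 f hvf hgf d, hx0 e hve hge d]
      simp
    · simp [hvf, hve]
    · simp [hef]
    · have M22 : bf F (act g e) (f + μ • e) = d := by
        simp only [map_add, map_smul, smul_eq_mul, μ, div_mul_cancel₀ _ hE]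
        ring
      have M21 : bf F (act g v) (f + μ • e) = 0 := by simp [-act_apply, hgf, hge]
      have : frameBlock g v e (f0 d) (f + μ • e) = d • 1 := by
        ext i j
        fin_cases i <;> fin_cases j <;> simp [frameBlock, -act_apply, hg0, hge0, M21, M22]
      exact ⟨by simp [this, det_fin_two, sq], Or.inl this⟩

/-- Self-adjointness when `B(gv, v)` vanishes identically. -/
theorem selfAdjoint_of_forall (hz : ∀ v, bf F (act g v) v = 0) (x y : V4 F) :
    bf F (act g x) y = bf F x (act g y) := by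
  have e := hz (x + y)
  simp only [map_add, LinearMap.add_apply, hz, zero_add, add_zero] at e
  rw [bf_swap (act g y) x]
  linear_combination e

theorem act_act_of_forall (hz : ∀ v, bf F (act g v) v = 0) (x : V4 F) : act g (act g x) = x := by
  rw [← sub_eq_zero]
  apply sympForm_eq_zero_forall
  intro y
  rw [← bf_apply, map_sub, bf_swap (act g (act g x)) y, selfAdjoint_of_forall hz (act g x) y,
    bf_act, bf_swap x y]
  simp

/-- The involutions with eigenvalues `±1`. -/
theorem exists_frame_involution_odd {d : F} (hd : d = -1) (h2 : (2 : F) ≠ 0)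
    (hz : ∀ v, bf F (act g v) v = 0)
    (hne1 : ∃ x, act g x ≠ x) (hne2 : ∃ x, act g x ≠ -x) :
    ∃ e₁ e₂ f₁ f₂, IsFrame e₁ e₂ f₁ f₂ ∧ GoodBlock d (frameBlock g e₁ e₂ f₁ f₂) := by
  have hgg := act_act_of_forall hz
  have hsa := selfAdjoint_of_forall hz
  obtain ⟨x, hx⟩ := hne2
  obtain ⟨y, hy⟩ := hne1
  set P : V4 F := act g x + x
  set W : V4 F := y - act g y
  have hP0 : P ≠ 0 := fun e => hx (eq_neg_of_add_eq_zero_left e)
  have hW0 : W ≠ 0 := fun e => hy (sub_eq_zero.mp e).symm
  have hP : act g P = P := by simp only [P, map_add, hgg]; abel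
  have hW : act g W = -W := by simp only [W, map_sub, hgg]; abel
  obtain ⟨z, hz1⟩ := exists_sympForm_eq_one hP0
  obtain ⟨w, hw1⟩ := exists_sympForm_eq_one hW0
  rw [← bf_apply] at hz1 hw1
  set Q : V4 F := (2 : F)⁻¹ • (z + act g z)
  set R : V4 F := (2 : F)⁻¹ • (w - act g w)
  have hQ : act g Q = Q := by simp only [Q, map_smul, map_add, hgg]; rw [add_comm]
  have hR : act g R = -R := by
    simp only [R, map_smul, map_sub, hgg, ← smul_neg]; rw [neg_sub]
  have hortho : ∀ a b : V4 F, act g a = a → act g b = -b → bf F a b = 0 := by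
    intro a b ha hb
    have := bf_act g a b
    rw [ha, hb, map_neg] at this
    have : (2 : F) * bf F a b = 0 := by linear_combination -this
    exact (mul_eq_zero.mp this).resolve_left h2
  have hPQ : bf F P Q = 1 := by
    have : bf F P (act g z) = 1 := by rw [← hsa, hP, hz1]
    simp only [Q, map_smul, map_add, smul_eq_mul, hz1, this]
    field_simp
    norm_num
  have hWR : bf F W R = 1 := by
    have : bf F W (act g w) = -1 := by
      rw [← hsa, hW, map_neg, LinearMap.neg_apply, hw1]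
    simp only [R, map_smul, map_sub, smul_eq_mul, hw1, this]
    field_simp
    norm_num
  have o1 := hortho P W hP hW
  have o2 := hortho P R hP hR
  have o3 := hortho Q W hQ hW
  have o4 := hortho Q R hQ hR
  have hh : (2 : F)⁻¹ * 2 = 1 := inv_mul_cancel₀ h2
  refine ⟨P + W, (Q - R) - (P - W), (2 : F)⁻¹ • (Q + R), (2 : F)⁻¹ • (Q - R) - (P - W),
    ⟨?_, ?_, ?_, ?_, ?_, ?_⟩, ?_⟩
  · simp [map_add, map_sub, bf_swap P W, bf_swap P R, bf_swap Q W, bf_swap Q R, bf_swap P Q, bf_swap W R,
      o1, o2, o3, o4, hPQ, hWR]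
  · simp [map_add, map_sub, map_smul, bf_swap P W, bf_swap P R, bf_swap Q W, bf_swap Q R, bf_swap P Q,
      bf_swap W R, o1, o2, o3, o4, hPQ, hWR]
  · simp [map_add, map_sub, map_smul, bf_swap P W, bf_swap P R, bf_swap Q W, bf_swap Q R, bf_swap P Q,
      bf_swap W R, o1, o2, o3, o4, hPQ, hWR]
    linear_combination hh
  · simp [map_add, map_sub, map_smul, bf_swap P W, bf_swap P R, bf_swap Q W, bf_swap Q R, bf_swap P Q,
      bf_swap W R, o1, o2, o3, o4, hPQ, hWR]
  · simp [map_add, map_sub, map_smul, bf_swap P W, bf_swap P R, bf_swap Q W, bf_swap Q R, bf_swap P Q,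
      bf_swap W R, o1, o2, o3, o4, hPQ, hWR]
  · simp [map_add, map_sub, map_smul, bf_swap P W, bf_swap P R, bf_swap Q W, bf_swap Q R, bf_swap P Q,
      bf_swap W R, o1, o2, o3, o4, hPQ, hWR]
    first | linear_combination hh | linear_combination -hh | linear_combination 3 * hh | linear_combination -3 * hh
  · have g1 : act g (P + W) = P - W := by rw [map_add, hP, hW, ← sub_eq_add_neg]
    have g2 : act g ((Q - R) - (P - W)) = (Q + R) - (P + W) := by
      rw [map_sub, map_sub, map_sub, hP, hW, hQ, hR, sub_neg_eq_add, sub_neg_eq_add]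
    have : frameBlock g (P + W) ((Q - R) - (P - W)) ((2 : F)⁻¹ • (Q + R))
        ((2 : F)⁻¹ • (Q - R) - (P - W)) = !![0, -1; 1, 0] := by
      unfold frameBlock
      rw [g1, g2]
      ext i j
      fin_cases i <;> fin_cases j <;>
        simp [map_add, map_sub, map_smul, bf_swap P W, bf_swap P R, bf_swap Q W, bf_swap Q R,
          bf_swap P Q, bf_swap W R, o1, o2, o3, o4, hPQ, hWR]
      all_goals first | linear_combination hh | linear_combination -hh | linear_combination -2 * hh | linear_combination 2 * hh | linear_combination -3 * hh | linear_combination 3 * hh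
    rw [this]
    refine ⟨by simp [det_fin_two, hd], Or.inr ⟨by simp [trace_fin_two, hd, h2], fun c hc => ?_⟩⟩
    have := congrFun (congrFun hc 1) 0
    simp at this

/-- The short involutions in characteristic two. -/
theorem exists_frame_involution_two {d : F} (hd1 : d ≠ 1) (h2 : (2 : F) = 0)
    (hz : ∀ v, bf F (act g v) v = 0) (hne : ∃ x, act g x ≠ x) :
    ∃ e₁ e₂ f₁ f₂, IsFrame e₁ e₂ f₁ f₂ ∧ GoodBlock d (frameBlock g e₁ e₂ f₁ f₂) := by
  have hgg := act_act_of_forall hz
  have hsa := selfAdjoint_of_forall hz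
  have hneg : ∀ a : F, -a = a := fun a => by linear_combination -a * h2
  have hnegv : ∀ a : V4 F, -a = a := fun a => funext fun i => hneg (a i)
  let N : V4 F →ₗ[F] V4 F := act g + LinearMap.id
  have hN : ∀ a b, bf F (N a) b = bf F a (N b) := fun a b => by simp [N, -act_apply, hsa]
  have hNN : ∀ a, N (N a) = 0 := fun a => by
    simp only [N, LinearMap.add_apply, LinearMap.id_apply, map_add, hgg]
    rw [show a + act g a + (act g a + a) = (2 : F) • (a + act g a) by rw [two_smul]; abel, h2,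
      zero_smul]
  have hdiag : ∀ a, bf F a (N a) = 0 := fun a => by
    simp [N, -act_apply, ← hsa, hz]
  obtain ⟨y, hy⟩ := hne
  have hNy : N y ≠ 0 := fun e => hy (by
    have e' : act g y = -y := eq_neg_of_add_eq_zero_left (by simpa [N, -act_apply] using e)
    rw [e', hnegv])
  obtain ⟨x, hx⟩ := exists_sympForm_eq_one hNy
  rw [← bf_apply] at hx
  have hxN : bf F x (N y) = 1 := by rw [bf_swap (N y) x, hx, hneg]
  -- make `x, y` orthogonal
  obtain ⟨y, hxy, hxN⟩ : ∃ y', bf F x y' = 0 ∧ bf F x (N y') = 1 := by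
    refine ⟨y + bf F x y • N y, ?_, ?_⟩
    · rw [map_add, map_smul, hxN, smul_eq_mul, mul_one]
      linear_combination bf F x y * h2
    · rw [map_add, map_smul, hNN, smul_zero, add_zero, hxN]
  have hyN : bf F y (N x) = 1 := by rw [bf_swap (N x) y, hN, hxN, hneg]
  set c : F := 1 + d
  have hc : c ≠ 0 := fun e => hd1 (by linear_combination e - h2)
  have hNxy : bf F (N x) (N y) = 0 := by rw [hN, hNN, map_zero]
  have hxN' : bf F (N x) x = 0 := by rw [hN, hdiag]
  have hyN' : bf F (N y) y = 0 := by rw [hN, hdiag]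
  have hxNy' : bf F (N x) y = 1 := by rw [hN, hxN]
  have hyNx' : bf F (N y) x = 1 := by rw [hN, hyN]
  refine ⟨x, y, c • y + N y, c • x + N x, ⟨hxy, ?_, ?_, ?_, ?_, ?_⟩, ?_⟩
  · simp only [map_add, map_smul, LinearMap.add_apply, LinearMap.smul_apply, smul_eq_mul,
      bf_swap x y, hxy, hyN, hyNx', bf_swap (N x) (N y), hNxy]
    linear_combination c * h2
  · simp [hxy, hxN]
  · simp [hdiag]
  · simp [hdiag]
  · simp [bf_swap x y, hxy, hyN]
  · have g1 : act g x = N x - x := by simp [N]
    have g2 : act g y = N y - y := by simp [N]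
    have : frameBlock g x y (c • y + N y) (c • x + N x) = d • 1 := by
      unfold frameBlock
      rw [g1, g2]
      ext i j
      fin_cases i <;> fin_cases j <;>
        simp [map_sub, map_smul, bf_swap x y, hxy, hxN, hyN, hdiag, hxN', hyN', hxNy', hyNx', hNxy,
          bf_swap (N x) (N y), c]
      all_goals linear_combination (0 : F) * h2
    exact ⟨by simp [this, det_fin_two, sq], Or.inl this⟩

/-- Every non-central element has a frame with a good block. -/
theorem exists_goodBlock {d : F} (hd0 : d ≠ 0) (hd1 : d ≠ 1) (hodd : (2 : F) ≠ 0 → d = -1)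
    (hg : g ∉ Subgroup.center (Matrix.symplecticGroup (Fin 2) F)) :
    ∃ e₁ e₂ f₁ f₂, IsFrame e₁ e₂ f₁ f₂ ∧ GoodBlock d (frameBlock g e₁ e₂ f₁ f₂) := by
  by_cases hz : ∀ v, bf F (act g v) v = 0
  · rw [mem_center_iff_eigen] at hg
    push Not at hg
    obtain ⟨v, -, hv⟩ := hg
    have h1 : ∃ x, act g x ≠ x := ⟨v, fun e => hv 1 (by simpa using e)⟩
    have h1' : ∃ x, act g x ≠ -x := ⟨v, fun e => hv (-1) (by simpa using e)⟩
    by_cases h2 : (2 : F) = 0
    · exact exists_frame_involution_two hd1 h2 hz h1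
    · exact exists_frame_involution_odd (hodd h2) h2 hz h1 h1'
  · push Not at hz
    obtain ⟨v, hv⟩ := hz
    exact exists_frame_generic hd0 hv

end Cfsg.Agent.H19.PSpFour
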